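import Cfsg.Agent.PermGroups.AltSuborbit.Sides

/-!
Two point stabilisers in which one suborbit carries the alternating group: the structure.
-/

set_option autoImplicit false

open Equiv
open scoped commutatorElement

namespace Cfsg.Agent.PermGroups.AltSuborbit

variable {n : ℕ} {G : Type*} [Group G] {M N D : Subgroup G}

variable (hD : D = M ⊓ N) {f : M →* Perm (Fin (n + 1))} (hf : ∀ m, f m 0 = 0 ↔ (m : G) ∈ N)
  {h : N →* Perm (Fin (n + 1))} (hh : ∀ x, h x 0 = 0 ↔ (x : G) ∈ M) (hD' : D = N ⊓ M)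

/-- A perfect normal subgroup of the kernel maps onto the alternating group modulo the other kernel. -/
theorem exists_factor [Finite G] (h5 : 5 ≤ n) {ι : Type*} [Finite ι] (P : ι → f.ker →* Perm (Fin n))
    (hP : ∀ x, (∀ i, P i x = 1) → x = 1) (hPA : ∀ i, alternatingGroup (Fin n) ≤ (P i).range)
    (hcov : alternatingGroup (Fin n) ≤ (rst hD f hf).ker.map (rst hD' h hh)) :
    ∃ U : Subgroup D, U ≤ (rst hD f hf).ker ∧ (∀ u ∈ U, ∀ a ∈ (rst hD f hf).ker, a * u * a⁻¹ ∈ U) ∧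
      ⁅U, U⁆ = U ∧ U ⊓ (rst hD' h hh).ker = ⊥ ∧ alternatingGroup (Fin n) ≤ U.map (rst hD' h hh) := by
  obtain ⟨U, hUn, hUp, hUk, hUA⟩ := exists_perfect_normal h5 P hP hPA ((rst hD' h hh).comp (iota hD hf))
    (by rwa [MonoidHom.range_comp, iota_range])
  refine ⟨U.map (iota hD hf), ?_, ?_, ?_, ?_, ?_⟩
  · rw [← iota_range]; exact (Subgroup.map_mono le_top).trans (MonoidHom.range_eq_map _).ge
  · rintro _ ⟨u, hu, rfl⟩ a ha
    rw [← iota_range] at ha
    obtain ⟨y, rfl⟩ := ha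
    exact ⟨y * u * y⁻¹, hUn.conj_mem u hu y, by simp⟩
  · rw [← Subgroup.map_commutator, hUp]
  · rw [eq_bot_iff]
    rintro _ ⟨⟨u, hu, rfl⟩, hk⟩
    have h1 : u ∈ U ⊓ ((rst hD' h hh).comp (iota hD hf)).ker := ⟨hu, hk⟩
    rw [hUk, Subgroup.mem_bot] at h1
    rw [h1, map_one]
    exact Subgroup.one_mem _
  · rwa [Subgroup.map_map]

/-- The factor of the other kernel centralises the commutator subgroup of the kernel. -/
theorem commute_of_factor (h5 : 5 ≤ n) {U V : Subgroup D} (hUle : U ≤ (rst hD f hf).ker)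
    (hUn : ∀ u ∈ U, ∀ a ∈ (rst hD f hf).ker, a * u * a⁻¹ ∈ U) (hUp : ⁅U, U⁆ = U)
    (hUk : U ⊓ (rst hD' h hh).ker = ⊥) (hUA : alternatingGroup (Fin n) ≤ U.map (rst hD' h hh))
    (hVle : V ≤ (rst hD' h hh).ker) (hVn : ∀ v ∈ V, ∀ a ∈ (rst hD' h hh).ker, a * v * a⁻¹ ∈ V)
    (hVk : V ⊓ (rst hD f hf).ker = ⊥) :
    V ≤ Subgroup.centralizer (⁅(rst hD f hf).ker, (rst hD f hf).ker⁆ : Subgroup D) := by
  set KA := (rst hD f hf).ker with hKA
  set KB := (rst hD' h hh).ker with hKB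
  haveI : KA.Normal := inferInstance
  haveI : KB.Normal := inferInstance
  set L := KA ⊓ KB with hL
  have hcomm : ∀ {W X : Subgroup D}, X.Normal → (∀ u ∈ W, ∀ a ∈ X, u * a * u⁻¹ * a⁻¹ ∈ X) := fun hX u hu a ha =>
    Subgroup.mul_mem _ (hX.conj_mem a ha u) (Subgroup.inv_mem _ ha)
  have hLU : ⁅L, U⁆ = ⊥ := by
    rw [eq_bot_iff, Subgroup.commutator_le]
    intro l hl u hu
    rw [← hUk, commutatorElement_def]
    refine ⟨U.mul_mem (hUn u hu l hl.1) (U.inv_mem hu), ?_⟩
    rw [show l * u * l⁻¹ * u⁻¹ = l * (u * l⁻¹ * u⁻¹) by group]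
    exact KB.mul_mem hl.2 ((inferInstance : KB.Normal).conj_mem _ (KB.inv_mem hl.2) u)
  have hLV : ⁅L, V⁆ = ⊥ := by
    rw [eq_bot_iff, Subgroup.commutator_le]
    intro l hl u hu
    rw [← hVk, commutatorElement_def]
    refine ⟨V.mul_mem (hVn u hu l hl.2) (V.inv_mem hu), ?_⟩
    rw [show l * u * l⁻¹ * u⁻¹ = l * (u * l⁻¹ * u⁻¹) by group]
    exact KA.mul_mem hl.1 ((inferInstance : KA.Normal).conj_mem _ (KA.inv_mem hl.1) u)
  have hUV : ⁅U, V⁆ ≤ L :=
    le_inf ((Subgroup.commutator_mono hUle le_top).trans (Subgroup.commutator_le_left _ _))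
      ((Subgroup.commutator_mono le_top hVle).trans (Subgroup.commutator_le_right _ _))
  have hUcV : ⁅U, V⁆ = ⊥ := by
    rw [← hUp]
    refine Subgroup.commutator_commutator_eq_bot_of_rotate ?_ ?_
    · exact eq_bot_iff.2 ((Subgroup.commutator_mono hUV le_rfl).trans hLU.le)
    · rw [Subgroup.commutator_comm V U]
      exact eq_bot_iff.2 ((Subgroup.commutator_mono hUV le_rfl).trans hLU.le)
  have h5' : 5 ≤ Nat.card (Fin n) := by simpa using h5
  intro v hv
  rw [Subgroup.mem_centralizer_iff]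
  intro x hx
  have hxA : x ∈ KA := Subgroup.commutator_le_left _ _ hx
  have h1 : rst hD' h hh x ∈ alternatingGroup (Fin n) := by
    rw [← alternatingGroup.commutator_perm_eq h5']
    have := Subgroup.mem_map_of_mem (rst hD' h hh) hx
    rw [Subgroup.map_commutator] at this
    exact Subgroup.commutator_mono le_top le_top this
  obtain ⟨u, hu, hux⟩ := hUA h1
  have hxu : x * u⁻¹ ∈ L := ⟨KA.mul_mem hxA (KA.inv_mem (hUle hu)), by
    show rst hD' h hh (x * u⁻¹) = 1
    rw [map_mul, map_inv, hux, mul_inv_cancel]⟩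
  have c1 : Commute u v := Subgroup.mem_centralizer_iff.1
    ((Subgroup.commutator_eq_bot_iff_le_centralizer.1 hUcV) hu) v hv |>.symm
  have c2 : Commute (x * u⁻¹) v := Subgroup.mem_centralizer_iff.1
    ((Subgroup.commutator_eq_bot_iff_le_centralizer.1 hLV) hxu) v hv |>.symm
  have := c2.mul_left c1
  rw [inv_mul_cancel_right] at this
  exact this

include hD hf in
/-- A subgroup centralised by a factor of the other kernel is normalised by the stabiliser. -/
theorem le_normalizer_of_centralized (h5 : 5 ≤ n) (hA : alternatingGroup (Fin (n + 1)) ≤ f.range) {Z W : Subgroup G}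
    (hZ : M ≤ Subgroup.normalizer (Z : Set G)) (hWZ : W ≤ Z) (hWD : D ≤ Subgroup.normalizer (W : Set G))
    (hex : ∃ m : M, f m ≠ 1 ∧ (m : G) ∈ Subgroup.centralizer (Z : Set G)) :
    M ≤ Subgroup.normalizer (W : Set G) := by
  set CM := (Subgroup.centralizer (Z : Set G)).subgroupOf M with hCM
  have hCn : CM.Normal := by
    refine ⟨fun c hc m => ?_⟩
    rw [hCM, Subgroup.mem_subgroupOf, Subgroup.mem_centralizer_iff] at hc ⊢
    intro z hz
    have hz' : (m : G)⁻¹ * z * (m : G) ∈ Z := by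
      have := (Subgroup.mem_normalizer_iff.1 (hZ (M.inv_mem m.2)) z).1 hz
      simpa using this
    have := hc _ hz'
    simp only [Subgroup.coe_mul, Subgroup.coe_inv]
    calc z * ((m : G) * c * (m : G)⁻¹) = (m : G) * (((m : G)⁻¹ * z * m) * c) * (m : G)⁻¹ := by group
      _ = (m : G) * ((c : G) * ((m : G)⁻¹ * z * m)) * (m : G)⁻¹ := by rw [this]
      _ = (m : G) * c * (m : G)⁻¹ * z := by group
  obtain ⟨m₀, hm₀, hm₀C⟩ := hex
  have hbig : alternatingGroup (Fin (n + 1)) ≤ CM.map f := by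
    refine (map_cases (by omega) f hA CM).resolve_left fun hb => hm₀ ?_
    have h1 : f m₀ ∈ CM.map f := Subgroup.mem_map_of_mem f (Subgroup.mem_subgroupOf.2 hm₀C)
    rw [hb, Subgroup.mem_bot] at h1
    exact h1
  intro m hm
  obtain ⟨σ, hσ, hσ0⟩ := exists_even_map (show 3 ≤ n + 1 by omega) 0 (f ⟨m, hm⟩ 0)
  obtain ⟨c, hc, hcσ⟩ := hbig hσ
  have h0 : f (c⁻¹ * ⟨m, hm⟩) 0 = 0 := by
    rw [map_mul, map_inv, Perm.mul_apply, hcσ, ← hσ0]
    exact σ.symm_apply_apply 0
  have hd : (c : G)⁻¹ * m ∈ D := hD.ge ⟨(c⁻¹ * ⟨m, hm⟩ : M).2, (hf _).1 h0⟩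
  have hcN : (c : G) ∈ Subgroup.normalizer (W : Set G) := Subgroup.centralizer_le_normalizer (W : Set G) (by
    rw [Subgroup.mem_centralizer_iff]
    exact fun w hw => Subgroup.mem_centralizer_iff.1 hc w (hWZ hw))
  have := Subgroup.mul_mem _ hcN (hWD hd)
  rwa [mul_inv_cancel_left] at this

theorem le_normalizer_commutator :
    M ≤ Subgroup.normalizer ((⁅f.ker.map M.subtype, f.ker.map M.subtype⁆ : Subgroup G) : Set G) := by
  rw [← Subgroup.map_commutator]
  refine (Subgroup.normal_subgroupOf_iff_le_normalizer (Subgroup.map_subtype_le _)).1 ?_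
  rw [Subgroup.subgroupOf, Subgroup.comap_map_eq_self_of_injective M.subtype_injective]
  infer_instance

include hD hf hh hD' in
/-- The two kernels are disjoint. -/
theorem inf_ker_eq_bot [Finite G] (h5 : 5 ≤ n) (hA : alternatingGroup (Fin (n + 1)) ≤ f.range)
    (e : N ≃* M) (h2 : SecondCoreTrivial f h ∨ SecondCoreTrivial h f)
    (hcoM : IsCoatom M) (hcoN : IsCoatom N) (hne : M ≠ N) (hcoreM : M.normalCore = ⊥) (hcoreN : N.normalCore = ⊥)
    (hnil : ∀ X : Subgroup D, X.Normal → Group.IsNilpotent X → X = ⊥) (hker : f.ker ≠ ⊥) :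
    (rst hD f hf).ker ⊓ (rst hD' h hh).ker = ⊥ ∧
      alternatingGroup (Fin n) ≤ (rst hD f hf).ker.map (rst hD' h hh) ∧
      alternatingGroup (Fin n) ≤ (rst hD' h hh).ker.map (rst hD f hf) ∧
      alternatingGroup (Fin (n + 1)) ≤ h.range ∧ Nat.card h.ker = Nat.card f.ker := by
  obtain ⟨heq, hA'⟩ := ker_eq hD hf h5 hA hh hD' e h2
  have hcard : Nat.card N = Nat.card M := Nat.card_congr e.toEquiv
  have hmem : ∀ x : N, x ∈ h.ker ↔ e x ∈ f.ker := fun x => by rw [heq]; rfl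
  let e' : h.ker ≃* f.ker :=
    { toEquiv := e.toEquiv.subtypeEquiv hmem
      map_mul' := fun a b => Subtype.ext (map_mul e (a : N) b) }
  have hkerN : h.ker ≠ ⊥ := by
    intro hb
    refine hker (Subgroup.eq_bot_of_card_eq _ ?_)
    rw [← Nat.card_congr e'.toEquiv, hb, Subgroup.card_bot]
  have hNM : ¬ N ≤ M := fun hle => by
    rcases eq_or_lt_of_le hle with h | h
    · exact hne h.symm
    · exact hcoM.1 (hcoN.2 _ h)
  have hMN : ¬ M ≤ N := fun hle => by
    rcases eq_or_lt_of_le hle with h | h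
    · exact hne h
    · exact hcoN.1 (hcoM.2 _ h)
  have hcovB := alt_le_ker_map hD hf h5 hA hh hD' hcard hcoM hNM hcoreM hker
  have hcovA := alt_le_ker_map hD' hh h5 hA' hf hD hcard.symm hcoN hMN hcoreN hkerN
  obtain ⟨⟨U, hUle, hUn, hUp, hUk, hUA⟩, ⟨V, hVle, hVn, hVp, hVk, hVA⟩⟩ :
      (∃ U : Subgroup D, U ≤ (rst hD f hf).ker ∧ (∀ u ∈ U, ∀ a ∈ (rst hD f hf).ker, a * u * a⁻¹ ∈ U) ∧
        ⁅U, U⁆ = U ∧ U ⊓ (rst hD' h hh).ker = ⊥ ∧ alternatingGroup (Fin n) ≤ U.map (rst hD' h hh)) ∧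
      (∃ V : Subgroup D, V ≤ (rst hD' h hh).ker ∧ (∀ u ∈ V, ∀ a ∈ (rst hD' h hh).ker, a * u * a⁻¹ ∈ V) ∧
        ⁅V, V⁆ = V ∧ V ⊓ (rst hD f hf).ker = ⊥ ∧ alternatingGroup (Fin n) ≤ V.map (rst hD f hf)) := by
    rcases h2 with h2 | h2
    · refine ⟨exists_factor hD hf hh hD' h5 (coord hD hf hh hD') (coord_joint hD hf hh hD' h2)
        (coord_alt hD hf hh hD' hcovA) hcovA,
        exists_factor hD' hh hf hD h5 (fun i => (coord hD hf hh hD' i).comp e'.toMonoidHom) (fun x hx => ?_)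
          (fun i => ?_) hcovB⟩
      · exact (map_eq_one_iff e' e'.injective).1 (coord_joint hD hf hh hD' h2 _ hx)
      · refine (coord_alt hD hf hh hD' hcovA i).trans ?_
        rintro _ ⟨y, rfl⟩
        exact ⟨e'.symm y, by simp⟩
    · refine ⟨exists_factor hD hf hh hD' h5 (fun i => (coord hD' hh hf hD i).comp e'.symm.toMonoidHom) (fun x hx => ?_)
          (fun i => ?_) hcovA,
        exists_factor hD' hh hf hD h5 (coord hD' hh hf hD) (coord_joint hD' hh hf hD h2)
          (coord_alt hD' hh hf hD hcovB) hcovB⟩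
      · exact (map_eq_one_iff e'.symm e'.symm.injective).1 (coord_joint hD' hh hf hD h2 _ hx)
      · refine (coord_alt hD' hh hf hD hcovB i).trans ?_
        rintro _ ⟨y, rfl⟩
        exact ⟨e' y, by simp⟩
  have hVc := commute_of_factor hD hf hh hD' h5 hUle hUn hUp hUk hUA hVle hVn hVk
  have hUc := commute_of_factor hD' hh hf hD h5 hVle hVn hVp hVk hVA hUle hUn hUk
  set KA := (rst hD f hf).ker with hKA
  set KB := (rst hD' h hh).ker with hKB
  set XA := (⁅f.ker.map M.subtype, f.ker.map M.subtype⁆ : Subgroup G) with hXA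
  set XB := (⁅h.ker.map N.subtype, h.ker.map N.subtype⁆ : Subgroup G) with hXB
  have eA : XA = (⁅KA, KA⁆ : Subgroup D).map D.subtype := by rw [Subgroup.map_commutator, rst_ker_map]
  have eB : XB = (⁅KB, KB⁆ : Subgroup D).map D.subtype := by rw [Subgroup.map_commutator, rst_ker_map]
  have hne_bot : ∀ {T : Subgroup D} {φ : D →* Perm (Fin n)}, alternatingGroup (Fin n) ≤ T.map φ → ∃ t ∈ T, φ t ≠ 1 := by
    intro T φ hT
    by_contra hcon
    push Not at hcon
    refine alt_ne_bot h5 (le_bot_iff.1 (hT.trans ?_))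
    rintro _ ⟨t, ht, rfl⟩
    exact Subgroup.mem_bot.2 (hcon t ht)
  have hexA : ∃ m : M, f m ≠ 1 ∧ (m : G) ∈ Subgroup.centralizer (XA : Set G) := by
    obtain ⟨v, hv, hv1⟩ := hne_bot hVA
    refine ⟨⟨v, (hD.le v.2).1⟩, fun hc => hv1 ((rst_eq_one hD hf v).2 hc), ?_⟩
    rw [Subgroup.mem_centralizer_iff, eA]
    rintro _ ⟨x, hx, rfl⟩
    exact congrArg Subtype.val (Subgroup.mem_centralizer_iff.1 (hVc hv) x hx)
  have hexB : ∃ m : N, h m ≠ 1 ∧ (m : G) ∈ Subgroup.centralizer (XB : Set G) := by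
    obtain ⟨v, hv, hv1⟩ := hne_bot hUA
    refine ⟨⟨v, (hD'.le v.2).1⟩, fun hc => hv1 ((rst_eq_one hD' hh v).2 hc), ?_⟩
    rw [Subgroup.mem_centralizer_iff, eB]
    rintro _ ⟨x, hx, rfl⟩
    exact congrArg Subtype.val (Subgroup.mem_centralizer_iff.1 (hUc hv) x hx)
  have hMX : M ≤ Subgroup.normalizer (XA : Set G) := le_normalizer_commutator
  have hNX : N ≤ Subgroup.normalizer (XB : Set G) := le_normalizer_commutator
  have hWD : D ≤ Subgroup.normalizer ((XA ⊓ XB : Subgroup G) : Set G) := by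
    intro x hx
    rw [Subgroup.mem_normalizer_iff]
    intro y
    exact and_congr ((Subgroup.mem_normalizer_iff.1 (hMX (hD.le hx).1)) y)
      ((Subgroup.mem_normalizer_iff.1 (hNX (hD.le hx).2)) y)
  have hW : XA ⊓ XB = ⊥ := eq_bot_of_normalized hD hcoM hNM hcoreM
    (inf_le_left.trans (eA ▸ Subgroup.map_subtype_le _))
    (le_normalizer_of_centralized hD hf h5 hA hMX inf_le_left hWD hexA)
    (le_normalizer_of_centralized hD' hh h5 hA' hNX inf_le_right hWD hexB)
  refine ⟨?_, hcovA, hcovB, hA', Nat.card_congr e'.toEquiv⟩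
  refine hnil _ inferInstance ?_
  have hab : ∀ a ∈ KA ⊓ KB, ∀ b ∈ KA ⊓ KB, a * b = b * a := by
    intro a ha b hb
    rw [← commutatorElement_eq_one_iff_mul_comm]
    have h1 : ((⁅a, b⁆ : D) : G) ∈ XA ⊓ XB := ⟨by
      rw [eA]; exact Subgroup.mem_map_of_mem _ (Subgroup.commutator_mem_commutator ha.1 hb.1), by
      rw [eB]; exact Subgroup.mem_map_of_mem _ (Subgroup.commutator_mem_commutator ha.2 hb.2)⟩
    rw [hW, Subgroup.mem_bot] at h1
    exact Subtype.ext h1
  letI : CommGroup ↥(KA ⊓ KB) := { (inferInstance : Group ↥(KA ⊓ KB)) with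
    mul_comm := fun a b => Subtype.ext (hab a a.2 b b.2) }
  infer_instance

set_option maxHeartbeats 1000000 in
include hD hf hh hD' in
/-- The stabiliser is a subdirect product of two groups containing alternating groups. -/
theorem main [Finite G] (h5 : 5 ≤ n) (hA : alternatingGroup (Fin (n + 1)) ≤ f.range)
    (e : N ≃* M) (h2 : SecondCoreTrivial f h ∨ SecondCoreTrivial h f)
    (hcoM : IsCoatom M) (hcoN : IsCoatom N) (hne : M ≠ N) (hcoreM : M.normalCore = ⊥) (hcoreN : N.normalCore = ⊥)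
    (hnil : ∀ X : Subgroup D, X.Normal → Group.IsNilpotent X → X = ⊥) (hker : f.ker ≠ ⊥) :
    (f.range.index = 2 ∧ Nonempty (M ≃* alternatingGroup (Fin (n + 1)) × alternatingGroup (Fin n))) ∨
    (f.range = ⊤ ∧ (Nonempty (M ≃* Perm (Fin (n + 1)) × Perm (Fin n)) ∨
      Nonempty (M ≃* ((Perm.sign.comp (MonoidHom.fst (Perm (Fin (n + 1))) (Perm (Fin n)))) *
        (Perm.sign.comp (MonoidHom.snd (Perm (Fin (n + 1))) (Perm (Fin n))))).ker))) := by
  obtain ⟨hL, hcovA, hcovB, hA', hkcard⟩ :=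
    inf_ker_eq_bot hD hf hh hD' h5 hA e h2 hcoM hcoN hne hcoreM hcoreN hnil hker
  set KA := (rst hD f hf).ker with hKA
  set KB := (rst hD' h hh).ker with hKB
  have hKK : ∀ a ∈ KA, ∀ b ∈ KB, a * b = b * a := by
    intro a ha b hb
    rw [← commutatorElement_eq_one_iff_mul_comm]
    have : ⁅a, b⁆ ∈ KA ⊓ KB := Subgroup.commutator_le_inf KA KB (Subgroup.commutator_mem_commutator ha hb)
    rwa [hL, Subgroup.mem_bot] at this
  set AG := f.ker.map M.subtype with hAG
  have hMA : M ≤ Subgroup.normalizer (AG : Set G) := le_normalizer_kerMap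
  set CM := (Subgroup.centralizer (AG : Set G)).subgroupOf M with hCM
  haveI hCn : CM.Normal := by
    refine ⟨fun c hc m => ?_⟩
    rw [hCM, Subgroup.mem_subgroupOf, Subgroup.mem_centralizer_iff] at hc ⊢
    intro z hz
    have hz' : (m : G)⁻¹ * z * (m : G) ∈ AG := by
      have := (Subgroup.mem_normalizer_iff.1 (hMA (M.inv_mem m.2)) z).1 hz
      simpa using this
    have := hc _ hz'
    simp only [Subgroup.coe_mul, Subgroup.coe_inv]
    calc z * ((m : G) * c * (m : G)⁻¹) = (m : G) * (((m : G)⁻¹ * z * m) * c) * (m : G)⁻¹ := by group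
      _ = (m : G) * ((c : G) * ((m : G)⁻¹ * z * m)) * (m : G)⁻¹ := by rw [this]
      _ = (m : G) * c * (m : G)⁻¹ * z := by group
  let inc : D →* M := Subgroup.inclusion (hD.le.trans inf_le_left)
  have hKBC : ∀ x ∈ KB, inc x ∈ CM := by
    intro x hx
    rw [hCM, Subgroup.mem_subgroupOf, Subgroup.mem_centralizer_iff, hAG, ← rst_ker_map hD hf]
    rintro _ ⟨a, ha, rfl⟩
    exact congrArg Subtype.val (hKK a ha x hx)
  have hbig : alternatingGroup (Fin (n + 1)) ≤ CM.map f := by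
    refine (map_cases (by omega) f hA CM).resolve_left fun hb => alt_ne_bot h5 (le_bot_iff.1 (hcovB.trans ?_))
    rintro _ ⟨x, hx, rfl⟩
    have h1 : f (inc x) ∈ CM.map f := Subgroup.mem_map_of_mem f (hKBC x hx)
    rw [hb, Subgroup.mem_bot] at h1
    exact Subgroup.mem_bot.2 ((rst_eq_one hD hf x).2 h1)
  set q : D →* M ⧸ CM := (QuotientGroup.mk' CM).comp inc with hq
  have hqs : Function.Surjective q := by
    intro y
    obtain ⟨m, rfl⟩ := QuotientGroup.mk'_surjective CM y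
    obtain ⟨σ, hσ, hσ0⟩ := exists_even_map (show 3 ≤ n + 1 by omega) 0 (f m 0)
    obtain ⟨c, hc, hcσ⟩ := hbig hσ
    have h0 : f (c⁻¹ * m) 0 = 0 := by
      rw [map_mul, map_inv, Perm.mul_apply, hcσ, ← hσ0]
      exact σ.symm_apply_apply 0
    refine ⟨⟨(c⁻¹ * m : M), hD.ge ⟨(c⁻¹ * m : M).2, (hf _).1 h0⟩⟩, ?_⟩
    show QuotientGroup.mk' CM (c⁻¹ * m) = QuotientGroup.mk' CM m
    rw [map_mul, map_inv, (QuotientGroup.eq_one_iff c).2 hc |> fun e => (show QuotientGroup.mk' CM c = 1 from e),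
      inv_one, one_mul]
  have hqker : q.ker ≤ KB := by
    intro x hx
    rw [hq, MonoidHom.mem_ker, MonoidHom.comp_apply, QuotientGroup.mk'_apply, QuotientGroup.eq_one_iff,
      hCM, Subgroup.mem_subgroupOf, Subgroup.mem_centralizer_iff] at hx
    show rst hD' h hh x = 1
    have hc : rst hD' h hh x ∈ Subgroup.centralizer (alternatingGroup (Fin n) : Set (Perm (Fin n))) := by
      rw [Subgroup.mem_centralizer_iff]
      intro τ hτ
      obtain ⟨a, ha, rfl⟩ := hcovA hτ
      have := hx (a : G) (by rw [hAG, ← rst_ker_map hD hf]; exact Subgroup.mem_map_of_mem _ ha)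
      rw [← map_mul, ← map_mul]
      exact congrArg _ (Subtype.ext this)
    rwa [centralizer_alt h5, Subgroup.mem_bot] at hc
  let ψ : M →* Perm (Fin n) := (q.liftOfSurjective hqs ⟨rst hD' h hh, hqker⟩).comp (QuotientGroup.mk' CM)
  have hψD : ∀ x : D, ψ (inc x) = rst hD' h hh x := fun x =>
    MonoidHom.liftOfRightInverse_comp_apply q _ (Function.rightInverse_surjInv hqs) ⟨rst hD' h hh, hqker⟩ x
  have hψC : ∀ c ∈ CM, ψ c = 1 := fun c hc => by
    show (q.liftOfSurjective hqs ⟨rst hD' h hh, hqker⟩) (QuotientGroup.mk' CM c) = 1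
    rw [show QuotientGroup.mk' CM c = 1 from (QuotientGroup.eq_one_iff c).2 hc, map_one]
  set Φ := f.prod ψ with hΦ
  have hinj : Function.Injective Φ := by
    rw [injective_iff_map_eq_one]
    intro m hm
    obtain ⟨hm1, hm2⟩ := Prod.mk.inj hm
    let x : D := iota hD hf ⟨m, hm1⟩
    have hx : x ∈ KA ⊓ KB := ⟨(rst_eq_one hD hf x).2 hm1, by
      show rst hD' h hh x = 1
      rw [← hψD]; exact hm2⟩
    rw [hL, Subgroup.mem_bot] at hx
    exact Subtype.ext (congrArg Subtype.val hx : ((x : D) : G) = 1)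
  have hrA : ∀ σ ∈ alternatingGroup (Fin (n + 1)), (σ, (1 : Perm (Fin n))) ∈ Φ.range := fun σ hσ => by
    obtain ⟨c, hc, rfl⟩ := hbig hσ
    exact ⟨c, Prod.ext rfl (hψC c hc)⟩
  have hrB : ∀ τ ∈ alternatingGroup (Fin n), ((1 : Perm (Fin (n + 1))), τ) ∈ Φ.range := fun τ hτ => by
    obtain ⟨a, ha, rfl⟩ := hcovA hτ
    exact ⟨inc a, Prod.ext ((rst_eq_one hD hf a).1 ha) (hψD a)⟩
  have hψr : ψ.range = (rst hD' h hh).range := by
    refine le_antisymm ?_ (fun τ ⟨x, hx⟩ => ⟨inc x, (hψD x).trans hx⟩)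
    rintro _ ⟨m, rfl⟩
    obtain ⟨x, hx⟩ := hqs (QuotientGroup.mk' CM m)
    refine ⟨x, ?_⟩
    rw [← hψD]
    simp only [ψ, MonoidHom.comp_apply]
    rw [show QuotientGroup.mk' CM (inc x) = QuotientGroup.mk' CM m from hx]
  have hrcard : Nat.card (rst hD' h hh).range = Nat.card (rst hD f hf).range := by
    have e1 := card_hom_eq (rst hD f hf)
    rw [← card_hom_eq (rst hD' h hh), card_rst_ker, card_rst_ker, hkcard] at e1
    exact (Nat.eq_of_mul_eq_mul_left Nat.card_pos e1).symm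
  have eΦ : M ≃* Φ.range := MonoidHom.ofInjective hinj
  haveI : Nontrivial (Fin (n + 1)) := Fin.nontrivial_iff_two_le.2 (by omega)
  haveI : Nontrivial (Fin n) := Fin.nontrivial_iff_two_le.2 (by omega)
  by_cases htop : f.range = ⊤
  · right
    refine ⟨htop, ?_⟩
    have hψtop : ψ.range = ⊤ := by
      rw [hψr]
      apply Subgroup.eq_top_of_card_eq
      rw [hrcard, rst_top hD hf htop, Subgroup.card_top]
    by_cases hmix : ∃ p ∈ Φ.range, Perm.sign p.1 ≠ Perm.sign p.2
    · left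
      refine ⟨eΦ.trans ((MulEquiv.subgroupCongr (?_ : Φ.range = ⊤)).trans Subgroup.topEquiv)⟩
      obtain ⟨p, hp, hsign⟩ := hmix
      have hbase : ∀ q : Perm (Fin (n + 1)) × Perm (Fin n), Perm.sign q.1 = 1 → Perm.sign q.2 = 1 → q ∈ Φ.range := by
        intro q h1 h2
        have := Φ.range.mul_mem (hrA q.1 h1) (hrB q.2 h2)
        simpa using this
      refine eq_top_iff.2 fun q _ => ?_
      obtain ⟨m, hm⟩ := (htop.ge (Subgroup.mem_top q.1) : q.1 ∈ f.range)
      -- correct the second sign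
      have hr : (f m, ψ m) ∈ Φ.range := ⟨m, rfl⟩
      by_cases hs : Perm.sign q.2 = Perm.sign (ψ m)
      · have := Φ.range.mul_mem hr (hbase ((f m)⁻¹ * q.1, (ψ m)⁻¹ * q.2) (by simp [hm]) (by simp [hs]))
        simpa using this
      · -- an element of signs `(1, -1)`
        obtain ⟨w, hw, hw1, hw2⟩ : ∃ w ∈ Φ.range, Perm.sign w.1 = 1 ∧ Perm.sign w.2 = -1 := by
          rcases Int.units_eq_one_or (Perm.sign p.1) with h1 | h1
          · exact ⟨p, hp, h1, (Int.units_eq_one_or _).resolve_left fun h2 => hsign (h1.trans h2.symm)⟩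
          · obtain ⟨τ, hτ⟩ := Perm.sign_surjective (Fin n) (-1)
            obtain ⟨m', hm'⟩ := (hψtop.ge (Subgroup.mem_top τ) : τ ∈ ψ.range)
            have h2 : Perm.sign p.2 = 1 := (Int.units_eq_one_or _).resolve_right fun h2 => hsign (h1.trans h2.symm)
            rcases Int.units_eq_one_or (Perm.sign (f m')) with h3 | h3
            · exact ⟨(f m', ψ m'), ⟨m', rfl⟩, h3, by rw [hm', hτ]⟩
            · exact ⟨p * (f m', ψ m'), Φ.range.mul_mem hp ⟨m', rfl⟩, by simp [h1, h3], by simp [h2, hm', hτ]⟩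
        have hs' : Perm.sign q.2 = -Perm.sign (ψ m) := Int.units_ne_iff_eq_neg.1 hs
        have := Φ.range.mul_mem (Φ.range.mul_mem hr hw) (hbase ((f m * w.1)⁻¹ * q.1, (ψ m * w.2)⁻¹ * q.2)
          (by simp [hm, hw1]) (by simp [hs', hw2]))
        rwa [show (f m, ψ m) * w * (((f m * w.1)⁻¹ * q.1, (ψ m * w.2)⁻¹ * q.2) : Perm (Fin (n + 1)) × Perm (Fin n)) = q from
          Prod.ext (by simp [mul_assoc]) (by simp [mul_assoc])] at this
    · right
      push Not at hmix
      refine ⟨eΦ.trans (MulEquiv.subgroupCongr (le_antisymm ?_ ?_))⟩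
      · intro p hp
        rw [MonoidHom.mem_ker, MonoidHom.mul_apply]
        show Perm.sign p.1 * Perm.sign p.2 = 1
        rw [hmix p hp, Int.units_mul_self]
      · intro p hp
        rw [MonoidHom.mem_ker, MonoidHom.mul_apply] at hp
        have hp' : Perm.sign p.1 = Perm.sign p.2 := by
          have h : Perm.sign p.1 * Perm.sign p.2 = 1 := hp
          rwa [mul_eq_one_iff_eq_inv, Int.units_inv_eq_self] at h
        obtain ⟨m, hm⟩ := (htop.ge (Subgroup.mem_top p.1) : p.1 ∈ f.range)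
        have hr : (f m, ψ m) ∈ Φ.range := ⟨m, rfl⟩
        have h2 : Perm.sign (ψ m) = Perm.sign p.2 := by rw [← hp', ← hm]; exact (hmix _ hr).symm
        have := Φ.range.mul_mem hr (hrB ((ψ m)⁻¹ * p.2) (by simp [h2]))
        simpa [hm] using this
  · left
    have hf2 : f.range = alternatingGroup (Fin (n + 1)) := by
      have h1 := Subgroup.relIndex_mul_index hA
      rw [alternatingGroup.index_eq_two] at h1
      have h2 : f.range.index ≠ 1 := fun e => htop (Subgroup.index_eq_one.1 e)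
      have h3 : f.range.index = 2 := ((Nat.dvd_prime Nat.prime_two).1 (h1 ▸ dvd_mul_left _ _)).resolve_left h2
      rw [h3] at h1
      exact le_antisymm (Subgroup.relIndex_eq_one.1 (by omega)) hA
    refine ⟨by rw [hf2, alternatingGroup.index_eq_two], ?_⟩
    have hψA : ψ.range = alternatingGroup (Fin n) := by
      have hle : (rst hD f hf).range ≤ alternatingGroup (Fin n) := by
        rintro _ ⟨x, rfl⟩
        rw [Perm.mem_alternatingGroup, ← sign_lift, lift_rst]
        have : f (inc x) ∈ f.range := ⟨_, rfl⟩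
        rw [hf2] at this
        exact this
      rw [hψr]
      refine (Subgroup.eq_of_le_of_card_ge (hcovA.trans ?_) ?_).symm
      · rw [MonoidHom.range_eq_map]; exact Subgroup.map_mono le_top
      · rw [hrcard]; exact Subgroup.card_le_of_le hle
    refine ⟨eΦ.trans ((MulEquiv.subgroupCongr (?_ : Φ.range =
      (alternatingGroup (Fin (n + 1))).prod (alternatingGroup (Fin n)))).trans (Subgroup.prodEquiv _ _))⟩
    refine le_antisymm ?_ ?_
    · rintro _ ⟨m, rfl⟩
      exact ⟨hf2 ▸ ⟨m, rfl⟩, hψA ▸ ⟨m, rfl⟩⟩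
    · rintro p ⟨h1, h2⟩
      have := Φ.range.mul_mem (hrA p.1 h1) (hrB p.2 h2)
      simpa using this

end Cfsg.Agent.PermGroups.AltSuborbit
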