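import Mathlib

/-!
Subgroups of the symmetric group containing the alternating group.
-/

set_option autoImplicit false

open Equiv

namespace Cfsg.Agent.PermGroups.AltSuborbit

variable {n : ℕ}

theorem alt_ne_bot (h5 : 5 ≤ n) : alternatingGroup (Fin n) ≠ ⊥ := by
  intro h
  haveI : Nontrivial (Fin n) := Fin.nontrivial_iff_two_le.2 (by omega)
  have := two_mul_card_alternatingGroup (α := Fin n)
  rw [← Nat.card_eq_fintype_card, h, Subgroup.card_bot, Fintype.card_perm, Fintype.card_fin] at this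
  have := Nat.factorial_le h5
  norm_num at this
  omega

theorem centralizer_alt (h5 : 5 ≤ n) : Subgroup.centralizer (alternatingGroup (Fin n) : Set (Perm (Fin n))) = ⊥ := by
  by_contra h
  haveI : (Subgroup.centralizer (alternatingGroup (Fin n) : Set (Perm (Fin n)))).Normal := inferInstance
  have hle := Equiv.Perm.alternatingGroup_le_of_normal (by simpa using h5) ((Subgroup.nontrivial_iff_ne_bot _).2 h)
  refine alt_ne_bot h5 ?_
  rw [← commutator_alternatingGroup_eq_self (α := Fin n) (by simpa using h5), Subgroup.commutator_eq_bot_iff_le_centralizer]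
  exact hle

theorem eq_bot_or_alt_le (h5 : 5 ≤ n) {R W : Subgroup (Perm (Fin n))} (hR : alternatingGroup (Fin n) ≤ R)
    (hWR : W ≤ R) (hn : ∀ w ∈ W, ∀ r ∈ R, r * w * r⁻¹ ∈ W) : W = ⊥ ∨ alternatingGroup (Fin n) ≤ W := by
  haveI := alternatingGroup.isSimpleGroup (α := Fin n) (by simpa using h5)
  have hnorm : (W.subgroupOf (alternatingGroup (Fin n))).Normal := ⟨fun x hx y => hn _ hx _ (hR y.2)⟩
  refine hnorm.eq_bot_or_eq_top.imp (fun h => ?_) Subgroup.subgroupOf_eq_top.1
  rw [Subgroup.subgroupOf_eq_bot] at h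
  rw [eq_bot_iff, ← centralizer_alt h5]
  intro w hw
  rw [Subgroup.mem_centralizer_iff]
  intro a ha
  have h1 : a * w * a⁻¹ * w⁻¹ ∈ W := W.mul_mem (hn w hw a (hR ha)) (W.inv_mem hw)
  have h2 : a * w * a⁻¹ * w⁻¹ ∈ alternatingGroup (Fin n) := by
    rw [Equiv.Perm.mem_alternatingGroup, map_mul, map_mul, map_mul, map_inv, map_inv,
      mul_right_comm (Equiv.Perm.sign a)]
    simp
  have := Subgroup.disjoint_def.1 h h1 h2
  rwa [mul_inv_eq_one, mul_inv_eq_iff_eq_mul] at this

theorem map_cases (h5 : 5 ≤ n) {X : Type*} [Group X] (φ : X →* Perm (Fin n))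
    (hφ : alternatingGroup (Fin n) ≤ φ.range) (W : Subgroup X) [hW : W.Normal] :
    W.map φ = ⊥ ∨ alternatingGroup (Fin n) ≤ W.map φ := by
  refine eq_bot_or_alt_le h5 hφ (by rw [MonoidHom.range_eq_map]; exact Subgroup.map_mono le_top) ?_
  rintro _ ⟨w, hw, rfl⟩ _ ⟨r, rfl⟩
  exact ⟨r * w * r⁻¹, hW.conj_mem w hw r, by simp⟩

/-- Extension of a permutation fixing `0`. -/
def lift (n : ℕ) : Perm (Fin n) →* Perm (Fin (n + 1)) where
  toFun τ := Equiv.Perm.decomposeFin.symm (0, τ)
  map_one' := by rw [Equiv.Perm.decomposeFin_symm_of_one, swap_self]; rfl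
  map_mul' σ τ := by
    ext i
    refine Fin.cases ?_ ?_ i
    · simp
    · intro j; simp

@[simp] theorem lift_zero (τ : Perm (Fin n)) : lift n τ 0 = 0 := by simp [lift]

theorem lift_injective : Function.Injective (lift n) := fun σ τ h =>
  (Prod.mk.inj (Equiv.Perm.decomposeFin.symm.injective h)).2

theorem sign_lift (τ : Perm (Fin n)) : Equiv.Perm.sign (lift n τ) = Equiv.Perm.sign τ := by
  simp [lift]

theorem mem_range_lift {π : Perm (Fin (n + 1))} (h : π 0 = 0) : π ∈ (lift n).range := by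
  refine ⟨(Equiv.Perm.decomposeFin π).2, ?_⟩
  have h1 : (Equiv.Perm.decomposeFin π).1 = 0 := by
    rw [← Equiv.Perm.decomposeFin_symm_apply_zero (Equiv.Perm.decomposeFin π).1 (Equiv.Perm.decomposeFin π).2,
      Prod.mk.eta, Equiv.symm_apply_apply, h]
  show Equiv.Perm.decomposeFin.symm (0, _) = π
  rw [← h1, Prod.mk.eta, Equiv.symm_apply_apply]

/-- The restriction to the points other than `0`. -/
noncomputable def restr {X : Type*} [Group X] (φ : X →* Perm (Fin (n + 1))) (hφ : ∀ x, φ x 0 = 0) :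
    X →* Perm (Fin n) :=
  (MonoidHom.ofInjective (lift_injective (n := n))).symm.toMonoidHom.comp
    (φ.codRestrict (lift n).range fun x => mem_range_lift (hφ x))

theorem lift_restr {X : Type*} [Group X] (φ : X →* Perm (Fin (n + 1))) (hφ : ∀ x, φ x 0 = 0) (x : X) :
    lift n (restr φ hφ x) = φ x := by
  have := (MonoidHom.ofInjective (lift_injective (n := n))).apply_symm_apply ⟨φ x, mem_range_lift (hφ x)⟩
  exact congrArg Subtype.val this

theorem restr_eq_one {X : Type*} [Group X] (φ : X →* Perm (Fin (n + 1))) (hφ : ∀ x, φ x 0 = 0) (x : X) :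
    restr φ hφ x = 1 ↔ φ x = 1 := by
  rw [← lift_restr φ hφ x, map_eq_one_iff _ lift_injective]

theorem exists_even_map (h3 : 3 ≤ n) (i : Fin n) (j : Fin n) :
    ∃ σ ∈ alternatingGroup (Fin n), σ i = j := by
  haveI := alternatingGroup.isPretransitive_of_three_le_card (Fin n) (by simpa using h3)
  obtain ⟨σ, hσ⟩ := MulAction.exists_smul_eq (alternatingGroup (Fin n)) i j
  exact ⟨σ, σ.2, hσ⟩

/-- A group with small quotients has no image containing a bigger alternating group. -/
theorem noBig (h5 : 5 ≤ n) {X : Type*} [Group X] [Finite X] {ι : Type*} [Finite ι] (P : ι → X →* Perm (Fin n))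
    (hP : ∀ x, (∀ i, P i x = 1) → x = 1) (φ : X →* Perm (Fin (n + 1))) :
    ¬ alternatingGroup (Fin (n + 1)) ≤ φ.range := by
  classical
  haveI := Fintype.ofFinite ι
  intro hφ
  have key : ∀ S : Finset ι, alternatingGroup (Fin (n + 1)) ≤ (S.inf fun i => (P i).ker).map φ := by
    intro S
    induction S using Finset.induction with
    | empty => simpa [← MonoidHom.range_eq_map] using hφ
    | insert j S hj ih =>
      rw [Finset.inf_insert]
      set W := S.inf fun i => (P i).ker
      haveI hWn : W.Normal := ⟨fun x hx y => by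
        simp only [W, Finset.inf_eq_iInf, Subgroup.mem_iInf, MonoidHom.mem_ker] at hx ⊢
        intro i hi; simp [hx i hi]⟩
      refine (map_cases (by omega) φ hφ ((P j).ker ⊓ W)).resolve_left fun hb => ?_
      have h1 : (P j).ker.subgroupOf W ≤ (φ.comp W.subtype).ker := by
        intro x hx
        have : φ (x : X) ∈ ((P j).ker ⊓ W).map φ := Subgroup.mem_map_of_mem _ ⟨hx, x.2⟩
        rw [hb] at this
        exact this
      have h2 := Nat.le_of_dvd (Nat.pos_of_ne_zero Subgroup.index_ne_zero_of_finite) (Subgroup.index_dvd_of_le h1)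
      rw [Subgroup.index_ker, MonoidHom.range_comp, Subgroup.range_subtype] at h2
      have h3 : ((P j).ker.subgroupOf W).index ≤ n.factorial := by
        show ((P j).comp W.subtype).ker.index ≤ _
        rw [Subgroup.index_ker]
        exact (Subgroup.card_le_card_group _).trans_eq (by rw [Nat.card_perm, Nat.card_fin])
      have h4 : Nat.card (alternatingGroup (Fin (n + 1))) ≤ n.factorial :=
        ((Subgroup.card_le_of_le ih).trans h2).trans h3
      haveI : Nontrivial (Fin (n + 1)) := Fin.nontrivial_iff_two_le.2 (by omega)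
      have := two_mul_card_alternatingGroup (α := Fin (n + 1))
      rw [← Nat.card_eq_fintype_card, Fintype.card_perm, Fintype.card_fin, Nat.factorial_succ] at this
      have := Nat.factorial_pos n
      nlinarith
  have h := key Finset.univ
  rw [show (Finset.univ.inf fun i => (P i).ker) = ⊥ from (Subgroup.eq_bot_iff_forall _).2 fun x hx => hP x (by
    simpa [Finset.inf_eq_iInf, Subgroup.mem_iInf] using hx), Subgroup.map_bot, le_bot_iff] at h
  exact alt_ne_bot (by omega) h

/-- In a subdirect product of groups with alternating socle each large kernel is avoided by a perfect normal subgroup. -/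
theorem exists_perfect_normal (h5 : 5 ≤ n) {X : Type*} [Group X] [Finite X] {ι : Type*} [Finite ι]
    (P : ι → X →* Perm (Fin n)) (hP : ∀ x, (∀ i, P i x = 1) → x = 1)
    (hPA : ∀ i, alternatingGroup (Fin n) ≤ (P i).range)
    (ψ : X →* Perm (Fin n)) (hψ : alternatingGroup (Fin n) ≤ ψ.range) :
    ∃ U : Subgroup X, U.Normal ∧ ⁅U, U⁆ = U ∧ U ⊓ ψ.ker = ⊥ ∧ alternatingGroup (Fin n) ≤ U.map ψ := by
  classical
  haveI := Fintype.ofFinite ι
  have h5' : 5 ≤ Nat.card (Fin n) := by simpa using h5
  have hCmap : ∀ φ : X →* Perm (Fin n), alternatingGroup (Fin n) ≤ φ.range →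
      (commutator X).map φ = alternatingGroup (Fin n) := by
    intro φ hφ
    rw [commutator_def, Subgroup.map_commutator, ← MonoidHom.range_eq_map]
    refine le_antisymm ?_ ?_
    · rw [← alternatingGroup.commutator_perm_eq h5']
      exact Subgroup.commutator_mono le_top le_top
    · rw [← commutator_alternatingGroup_eq_self h5']
      exact Subgroup.commutator_mono hφ hφ
  set C := commutator X with hC
  obtain ⟨S, hS, hSmin⟩ := Finset.exists_min_image
    ((Finset.univ : Finset (Finset ι)).filter fun S => (S.inf fun i => (P i).ker) ⊓ C = ⊥) Finset.card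
    ⟨Finset.univ, Finset.mem_filter.2 ⟨Finset.mem_univ _, (Subgroup.eq_bot_iff_forall _).2 fun x hx => hP x (by
      have hx1 := hx.1
      simpa [Finset.inf_eq_iInf, Subgroup.mem_iInf] using hx1)⟩⟩
  rw [Finset.mem_filter] at hS
  have hbot := hS.2
  let U : ι → Subgroup X := fun i => ((S.erase i).inf fun l => (P l).ker) ⊓ C
  have hUn : ∀ i, (U i).Normal := fun i => ⟨fun x hx y => by
    refine ⟨?_, (inferInstance : C.Normal).conj_mem x hx.2 y⟩
    show y * x * y⁻¹ ∈ (S.erase i).inf fun l => (P l).ker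
    have hx1 : x ∈ (S.erase i).inf fun l => (P l).ker := hx.1
    simp only [Finset.inf_eq_iInf, Subgroup.mem_iInf, MonoidHom.mem_ker] at hx1 ⊢
    intro l hl; simp [hx1 l hl]⟩
  have hUinj : ∀ i ∈ S, U i ⊓ (P i).ker = ⊥ := by
    intro i hi
    rw [eq_bot_iff, ← hbot]
    rintro x ⟨⟨h1, h2⟩, h3⟩
    refine ⟨?_, h2⟩
    have h1' : x ∈ (S.erase i).inf fun l => (P l).ker := h1
    show x ∈ S.inf fun l => (P l).ker
    simp only [Finset.inf_eq_iInf, Subgroup.mem_iInf] at h1' ⊢
    intro l hl
    by_cases e : l = i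
    · exact e ▸ h3
    · exact h1' l (Finset.mem_erase.2 ⟨e, hl⟩)
  have hUmap : ∀ i ∈ S, (U i).map (P i) = alternatingGroup (Fin n) := by
    intro i hi
    haveI := hUn i
    refine le_antisymm ((Subgroup.map_mono inf_le_right).trans (hCmap _ (hPA i)).le) ?_
    refine (map_cases h5 (P i) (hPA i) (U i)).resolve_left fun hb => ?_
    have hU : U i = ⊥ := by
      rw [← hUinj i hi, eq_comm, inf_eq_left]
      exact (Subgroup.map_eq_bot_iff _).1 hb
    have := hSmin (S.erase i) (Finset.mem_filter.2 ⟨Finset.mem_univ _, hU⟩)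
    rw [Finset.card_erase_of_mem hi] at this
    have := Finset.card_pos.2 ⟨i, hi⟩
    omega
  obtain ⟨i, hi, hiU⟩ : ∃ i ∈ S, ¬ U i ≤ ψ.ker := by
    by_contra hcon
    push Not at hcon
    refine alt_ne_bot h5 ?_
    rw [← hCmap ψ hψ, Subgroup.map_eq_bot_iff]
    intro x hx
    have main : ∀ T ⊆ S, ∃ u ∈ ψ.ker ⊓ C, ∀ l ∈ T, P l (x * u) = 1 := by
      intro T
      induction T using Finset.induction with
      | empty => exact fun _ => ⟨1, Subgroup.one_mem _, by simp⟩
      | insert j T hj ih =>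
        intro hT
        rw [Finset.insert_subset_iff] at hT
        obtain ⟨u, hu, hu'⟩ := ih hT.2
        have hmem : (P j (x * u))⁻¹ ∈ (U j).map (P j) := by
          rw [hUmap j hT.1, ← hCmap (P j) (hPA j)]
          exact Subgroup.inv_mem _ (Subgroup.mem_map_of_mem _ (C.mul_mem hx hu.2))
        obtain ⟨v, hv, hv'⟩ := hmem
        refine ⟨u * v, Subgroup.mul_mem _ hu ⟨hcon j hT.1 hv, hv.2⟩, fun l hl => ?_⟩
        rw [← mul_assoc, map_mul]
        rcases Finset.mem_insert.1 hl with rfl | hl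
        · rw [hv', mul_inv_cancel]
        · have hv1 : v ∈ (S.erase j).inf fun l => (P l).ker := hv.1
          simp only [Finset.inf_eq_iInf, Subgroup.mem_iInf, MonoidHom.mem_ker] at hv1
          rw [hu' l hl, hv1 l (Finset.mem_erase.2 ⟨fun e => hj (e ▸ hl), hT.2 hl⟩), one_mul]
    obtain ⟨u, hu, hu'⟩ := main S subset_rfl
    have h1 : x * u ∈ (S.inf fun l => (P l).ker) ⊓ C := ⟨by
      simpa [Finset.inf_eq_iInf, Subgroup.mem_iInf] using hu', C.mul_mem hx hu.2⟩
    rw [hbot, Subgroup.mem_bot, mul_eq_one_iff_eq_inv] at h1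
    rw [h1]
    exact Subgroup.inv_mem _ hu.1
  haveI := hUn i
  have hinj : ∀ x ∈ U i, P i x = 1 → x = 1 := fun x hx h =>
    Subgroup.mem_bot.1 (hUinj i hi ▸ ⟨hx, h⟩)
  have hperfect : ⁅U i, U i⁆ = U i := by
    refine le_antisymm (Subgroup.commutator_le_left _ _) fun x hx => ?_
    have : P i x ∈ ⁅U i, U i⁆.map (P i) := by
      rw [Subgroup.map_commutator, hUmap i hi, commutator_alternatingGroup_eq_self h5', ← hUmap i hi]
      exact Subgroup.mem_map_of_mem _ hx
    obtain ⟨y, hy, e⟩ := this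
    have h1 := hinj (x * y⁻¹) ((U i).mul_mem hx ((U i).inv_mem (Subgroup.commutator_le_left _ _ hy))) (by
      rw [map_mul, map_inv, e, mul_inv_cancel])
    rwa [← mul_inv_eq_one.1 h1] at hy
  refine ⟨U i, hUn i, hperfect, ?_, (map_cases h5 ψ hψ (U i)).resolve_left fun hb => hiU ((Subgroup.map_eq_bot_iff _).1 hb)⟩
  haveI : (U i ⊓ ψ.ker).Normal := inferInstance
  rcases map_cases h5 (P i) (hPA i) (U i ⊓ ψ.ker) with hb | hb
  · rw [Subgroup.map_eq_bot_iff] at hb
    exact eq_bot_iff.2 ((le_inf inf_le_left hb).trans (hUinj i hi).le)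
  · exfalso
    refine hiU fun x hx => ?_
    obtain ⟨y, hy, e⟩ := hb (hUmap i hi ▸ Subgroup.mem_map_of_mem _ hx)
    have h1 := hinj (x * y⁻¹) ((U i).mul_mem hx ((U i).inv_mem hy.1)) (by rw [map_mul, map_inv, e, mul_inv_cancel])
    rw [mul_inv_eq_one.1 h1]
    exact hy.2

end Cfsg.Agent.PermGroups.AltSuborbit
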