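import Cfsg.Agent.PermGroups.AltSuborbit.Perms

/-!
Two point stabilisers in which one suborbit carries the alternating group: the kernels.
-/

set_option autoImplicit false

open Equiv

namespace Cfsg.Agent.PermGroups.AltSuborbit

variable {n : ℕ} {G : Type*} [Group G] {M N D : Subgroup G}

/-- The restriction of `f` to the two point stabiliser. -/
noncomputable def rst (hD : D = M ⊓ N) (f : M →* Perm (Fin (n + 1))) (hf : ∀ m, f m 0 = 0 ↔ (m : G) ∈ N) :
    D →* Perm (Fin n) :=
  restr (f.comp (Subgroup.inclusion (hD.le.trans inf_le_left))) fun x => (hf _).2 (hD.le x.2).2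

variable (hD : D = M ⊓ N) {f : M →* Perm (Fin (n + 1))} (hf : ∀ m, f m 0 = 0 ↔ (m : G) ∈ N)

theorem lift_rst (x : D) : lift n (rst hD f hf x) = f ⟨x, (hD.le x.2).1⟩ := lift_restr _ _ x

theorem rst_eq_one (x : D) : rst hD f hf x = 1 ↔ f ⟨x, (hD.le x.2).1⟩ = 1 := restr_eq_one _ _ x

include hf in
theorem mem_of_ker {m : M} (hm : f m = 1) : (m : G) ∈ N := (hf m).1 (by rw [hm]; rfl)

theorem rst_ker_map : (rst hD f hf).ker.map D.subtype = f.ker.map M.subtype := by
  ext g
  constructor
  · rintro ⟨x, hx, rfl⟩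
    exact ⟨⟨x, (hD.le x.2).1⟩, (rst_eq_one hD hf x).1 hx, rfl⟩
  · rintro ⟨m, hm, rfl⟩
    exact ⟨⟨m, hD.ge ⟨m.2, mem_of_ker hf hm⟩⟩, (rst_eq_one hD hf _).2 hm, rfl⟩

theorem card_rst_ker : Nat.card (rst hD f hf).ker = Nat.card f.ker := by
  rw [← Subgroup.card_map_of_injective D.subtype_injective, rst_ker_map,
    Subgroup.card_map_of_injective M.subtype_injective]

/-- The kernel inside the two point stabiliser. -/
def iota : f.ker →* D where
  toFun x := ⟨x, hD.ge ⟨(x : M).2, mem_of_ker hf x.2⟩⟩
  map_one' := rfl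
  map_mul' _ _ := rfl

theorem iota_range : (iota hD hf).range = (rst hD f hf).ker := by
  ext x
  constructor
  · rintro ⟨y, rfl⟩
    exact (rst_eq_one hD hf _).2 y.2
  · exact fun hx => ⟨⟨⟨x, (hD.le x.2).1⟩, (rst_eq_one hD hf x).1 hx⟩, rfl⟩

theorem exists_mem_of_range {W : Subgroup (Perm (Fin (n + 1)))} (hW : W ≤ f.range) {τ : Perm (Fin n)}
    (hτ : lift n τ ∈ W) : τ ∈ (rst hD f hf).range := by
  obtain ⟨m, hm⟩ := hW hτ
  refine ⟨⟨m, hD.ge ⟨m.2, (hf m).1 (by rw [hm, lift_zero])⟩⟩, lift_injective ?_⟩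
  rw [lift_rst]; exact hm

theorem rst_alt (hA : alternatingGroup (Fin (n + 1)) ≤ f.range) :
    alternatingGroup (Fin n) ≤ (rst hD f hf).range := fun τ hτ => exists_mem_of_range hD hf hA (by
  rw [Equiv.Perm.mem_alternatingGroup, sign_lift]; exact hτ)

theorem rst_top (hA : f.range = ⊤) : (rst hD f hf).range = ⊤ :=
  eq_top_iff.2 fun _ _ => exists_mem_of_range hD hf (le_of_eq hA.symm) (Subgroup.mem_top _)

theorem factorial_le_two_mul (h2 : 2 ≤ n) {H : Subgroup (Perm (Fin n))} (h : alternatingGroup (Fin n) ≤ H) :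
    n.factorial ≤ 2 * Nat.card H := by
  haveI : Nontrivial (Fin n) := Fin.nontrivial_iff_two_le.2 h2
  have e := two_mul_card_alternatingGroup (α := Fin n)
  rw [← Nat.card_eq_fintype_card, Fintype.card_perm, Fintype.card_fin] at e
  have := Subgroup.card_le_of_le h
  omega

theorem card_le_factorial (H : Subgroup (Perm (Fin n))) : Nat.card H ≤ n.factorial :=
  (Subgroup.card_le_card_group H).trans_eq (by rw [Nat.card_perm, Nat.card_fin])

theorem card_hom_eq {X : Type*} [Group X] {m : ℕ} (φ : X →* Perm (Fin m)) :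
    Nat.card φ.ker * Nat.card φ.range = Nat.card X := by
  rw [← Subgroup.index_ker, Subgroup.card_mul_index]

theorem card_ker_le [Finite G] (h5 : 5 ≤ n) (hA : alternatingGroup (Fin (n + 1)) ≤ f.range)
    {h : N →* Perm (Fin (n + 1))} (hcard : Nat.card N = Nat.card M) :
    Nat.card f.ker ≤ 2 * Nat.card h.ker ∧
      (h.range ≠ ⊤ → Nat.card f.ker ≤ Nat.card h.ker) := by
  have e : Nat.card h.ker * Nat.card h.range = Nat.card f.ker * Nat.card f.range := by
    rw [card_hom_eq, card_hom_eq, hcard]
  have hf2 := factorial_le_two_mul (by omega) hA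
  refine ⟨?_, fun hne => ?_⟩
  · by_contra hlt
    push Not at hlt
    have := card_le_factorial h.range
    have := Nat.card_pos (α := h.ker)
    have := Nat.card_pos (α := f.range)
    nlinarith
  · have h2 : 2 * Nat.card h.range ≤ (n + 1).factorial := by
      have hdvd := Subgroup.card_mul_index h.range
      rw [Nat.card_perm, Nat.card_fin] at hdvd
      have h1 : h.range.index ≠ 1 := fun e => hne (Subgroup.index_eq_one.1 e)
      have h0 : h.range.index ≠ 0 := Subgroup.index_ne_zero_of_finite
      have : 2 ≤ h.range.index := by omega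
      nlinarith
    by_contra hlt
    push Not at hlt
    have := Nat.card_pos (α := h.ker)
    have := Nat.card_pos (α := f.range)
    nlinarith

include hD in
/-- Nothing is normalised by both stabilisers. -/
theorem eq_bot_of_normalized (hco : IsCoatom M) (hNM : ¬ N ≤ M) (hcore : M.normalCore = ⊥) {X : Subgroup G}
    (hX : X ≤ D) (hXM : M ≤ Subgroup.normalizer (X : Set G)) (hXN : N ≤ Subgroup.normalizer (X : Set G)) : X = ⊥ := by
  haveI : X.Normal := Subgroup.normalizer_eq_top_iff.1
    (hco.2 _ (lt_of_le_of_ne hXM fun h => hNM (h ▸ hXN)))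
  rw [eq_bot_iff, ← hcore]
  exact Subgroup.normal_le_normalCore.2 (hX.trans (hD.le.trans inf_le_left))

theorem le_normalizer_kerMap : M ≤ Subgroup.normalizer ((f.ker.map M.subtype : Subgroup G) : Set G) := by
  refine (Subgroup.normal_subgroupOf_iff_le_normalizer (Subgroup.map_subtype_le _)).1 ?_
  rw [Subgroup.subgroupOf, Subgroup.comap_map_eq_self_of_injective M.subtype_injective]
  infer_instance

/-- The other kernel covers the alternating group of the suborbit. -/
theorem alt_le_ker_map [Finite G] (h5 : 5 ≤ n) (hA : alternatingGroup (Fin (n + 1)) ≤ f.range)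
    {h : N →* Perm (Fin (n + 1))} (hh : ∀ x, h x 0 = 0 ↔ (x : G) ∈ M) (hD' : D = N ⊓ M)
    (hcard : Nat.card N = Nat.card M)
    (hco : IsCoatom M) (hNM : ¬ N ≤ M) (hcore : M.normalCore = ⊥) (hker : f.ker ≠ ⊥) :
    alternatingGroup (Fin n) ≤ (rst hD' h hh).ker.map (rst hD f hf) := by
  refine (map_cases h5 (rst hD f hf) (rst_alt hD hf hA) _).resolve_left fun hb => hker ?_
  rw [Subgroup.map_eq_bot_iff] at hb
  -- the image of the kernel of `f` is small and normal
  set KA := (rst hD f hf).ker with hKA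
  set KB := (rst hD' h hh).ker with hKB
  have e1 : Nat.card KB * Nat.card (KA.map (rst hD' h hh)) = Nat.card KA := by
    have := Subgroup.card_mul_index (KB.subgroupOf KA)
    rwa [Nat.card_congr (Subgroup.subgroupOfEquivOfLe hb).toEquiv,
      show (KB.subgroupOf KA).index = Nat.card (KA.map (rst hD' h hh)) by
        rw [show KB.subgroupOf KA = ((rst hD' h hh).comp KA.subtype).ker from rfl, Subgroup.index_ker,
          MonoidHom.range_comp, Subgroup.range_subtype]] at this
  have hcards := card_ker_le h5 hA (h := h) hcard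
  rw [← card_rst_ker hD hf, ← card_rst_ker hD' hh, ← hKA, ← hKB] at hcards
  have himg : KA.map (rst hD' h hh) = ⊥ := by
    by_cases htop : h.range = ⊤
    · refine (map_cases h5 (rst hD' h hh) (by rw [rst_top hD' hh htop]; exact le_top) KA).resolve_right fun hbig => ?_
      have := factorial_le_two_mul (by omega) hbig
      have h120 : 120 ≤ n.factorial := le_trans (by decide) (Nat.factorial_le h5)
      have := Nat.card_pos (α := KB)
      nlinarith [hcards.1]
    · apply Subgroup.eq_bot_of_card_le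
      have := hcards.2 htop
      have := Nat.card_pos (α := KB)
      nlinarith
  rw [Subgroup.map_eq_bot_iff] at himg
  have heq : KA = KB := le_antisymm himg hb
  have hmap : f.ker.map M.subtype = h.ker.map N.subtype := by
    rw [← rst_ker_map hD hf, ← rst_ker_map hD' hh, ← hKA, ← hKB, heq]
  have hbot := eq_bot_of_normalized hD hco hNM hcore (X := f.ker.map M.subtype)
    (by rw [← rst_ker_map hD hf]; exact Subgroup.map_subtype_le _) le_normalizer_kerMap
    (hmap ▸ le_normalizer_kerMap)
  rwa [Subgroup.map_eq_bot_iff_of_injective _ M.subtype_injective] at hbot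

/-- The coordinates of the kernel. -/
noncomputable def coord {h : N →* Perm (Fin (n + 1))} (hh : ∀ x, h x 0 = 0 ↔ (x : G) ∈ M) (hD' : D = N ⊓ M)
    (m : M) : f.ker →* Perm (Fin n) :=
  (rst hD' h hh).comp ((iota hD hf).comp (MulAut.conjNormal (H := f.ker) m).toMonoidHom)

/-- The second core of this side vanishes. -/
def SecondCoreTrivial (f : M →* Perm (Fin (n + 1))) (h : N →* Perm (Fin (n + 1))) : Prop :=
  ∀ X : Subgroup G, X ≤ f.ker.map M.subtype ⊓ h.ker.map N.subtype → M ≤ Subgroup.normalizer (X : Set G) → X = ⊥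

theorem coord_joint {h : N →* Perm (Fin (n + 1))} (hh : ∀ x, h x 0 = 0 ↔ (x : G) ∈ M) (hD' : D = N ⊓ M)
    (h2 : SecondCoreTrivial f h) (x : f.ker) (hx : ∀ m, coord hD hf hh hD' m x = 1) : x = 1 := by
  set J : Subgroup f.ker := ⨅ m, (coord hD hf hh hD' m).ker with hJ
  have hX : J.map (M.subtype.comp f.ker.subtype) = ⊥ := by
    refine h2 _ (le_inf ?_ ?_) ?_
    · rw [← Subgroup.map_map]; exact Subgroup.map_mono (Subgroup.map_subtype_le _)
    · rintro _ ⟨y, hy, rfl⟩
      have h1 := (Subgroup.mem_iInf.1 hy) 1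
      rw [← rst_ker_map hD' hh]
      refine ⟨iota hD hf y, ?_, rfl⟩
      simpa [coord] using h1
    · have hfix : ∀ m : M, ∀ g ∈ J.map (M.subtype.comp f.ker.subtype),
          (m : G) * g * (m : G)⁻¹ ∈ J.map (M.subtype.comp f.ker.subtype) := by
        rintro m _ ⟨y, hy, rfl⟩
        refine ⟨MulAut.conjNormal m y, Subgroup.mem_iInf.2 fun m' => ?_, rfl⟩
        have := (Subgroup.mem_iInf.1 hy) (m' * m)
        rw [MonoidHom.mem_ker] at this ⊢
        simpa [coord, map_mul, MulAut.mul_apply] using this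
      intro m hm
      rw [Subgroup.mem_normalizer_iff]
      refine fun g => ⟨hfix ⟨m, hm⟩ g, fun hg => ?_⟩
      simpa [mul_assoc] using hfix ⟨m⁻¹, M.inv_mem hm⟩ _ hg
  rw [Subgroup.map_eq_bot_iff_of_injective _
    ((M.subtype_injective.comp f.ker.subtype_injective) : Function.Injective (M.subtype.comp f.ker.subtype))] at hX
  have : x ∈ J := Subgroup.mem_iInf.2 hx
  rwa [hX, Subgroup.mem_bot] at this

theorem coord_alt {h : N →* Perm (Fin (n + 1))} (hh : ∀ x, h x 0 = 0 ↔ (x : G) ∈ M) (hD' : D = N ⊓ M)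
    (hA : alternatingGroup (Fin n) ≤ (rst hD f hf).ker.map (rst hD' h hh)) (m : M) :
    alternatingGroup (Fin n) ≤ (coord hD hf hh hD' m).range := by
  refine hA.trans ?_
  rintro _ ⟨y, hy, rfl⟩
  rw [← iota_range] at hy
  obtain ⟨z, rfl⟩ := hy
  exact ⟨(MulAut.conjNormal (H := f.ker) m).symm z, by simp [coord]⟩

include hD hf in
/-- The kernel on the paired suborbit is the conjugate of the kernel. -/
theorem ker_eq [Finite G] (h5 : 5 ≤ n) (hA : alternatingGroup (Fin (n + 1)) ≤ f.range)
    {h : N →* Perm (Fin (n + 1))} (hh : ∀ x, h x 0 = 0 ↔ (x : G) ∈ M) (hD' : D = N ⊓ M)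
    (e : N ≃* M) (h2 : SecondCoreTrivial f h ∨ SecondCoreTrivial h f) :
    h.ker = (f.comp e.toMonoidHom).ker ∧ alternatingGroup (Fin (n + 1)) ≤ h.range := by
  have hcard : Nat.card N = Nat.card M := Nat.card_congr e.toEquiv
  set φ := f.comp e.toMonoidHom with hφ
  have hφA : alternatingGroup (Fin (n + 1)) ≤ φ.range := fun σ hσ => by
    obtain ⟨m, hm⟩ := hA hσ
    exact ⟨e.symm m, by simp [φ, hm]⟩
  have hle : h.ker ≤ φ.ker := by
    rw [← Subgroup.map_eq_bot_iff]
    refine (map_cases (by omega) φ hφA h.ker).resolve_right fun hbig => ?_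
    rcases h2 with h2 | h2
    · set ψ : D →* Perm (Fin (n + 1)) := φ.comp (Subgroup.inclusion (hD'.le.trans inf_le_left))
      have hψ : alternatingGroup (Fin (n + 1)) ≤ ψ.range := hbig.trans (by
        rintro _ ⟨y, hy, rfl⟩
        exact ⟨iota hD' hh ⟨y, hy⟩, rfl⟩)
      rcases map_cases (by omega) ψ hψ (rst hD f hf).ker with hb | hb
      · rw [Subgroup.map_eq_bot_iff] at hb
        have h1 := Nat.le_of_dvd (Nat.pos_of_ne_zero Subgroup.index_ne_zero_of_finite) (Subgroup.index_dvd_of_le hb)
        rw [Subgroup.index_ker, Subgroup.index_ker] at h1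
        have h3 := factorial_le_two_mul (by omega) hψ
        have h4 := card_le_factorial (rst hD f hf).range
        rw [Nat.factorial_succ] at h3
        have := Nat.factorial_pos n
        nlinarith
      · refine noBig h5 (coord hD hf hh hD') (coord_joint hD hf hh hD' h2) (ψ.comp (iota hD hf)) ?_
        rwa [MonoidHom.range_comp, iota_range]
    · refine noBig h5 (coord hD' hh hf hD) (coord_joint hD' hh hf hD h2) (φ.comp h.ker.subtype) ?_
      rwa [MonoidHom.range_comp, Subgroup.range_subtype]
  have hφker : Nat.card φ.ker = Nat.card f.ker := Nat.card_congr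
    (e.toEquiv.subtypeEquiv fun x => Iff.rfl)
  have hcards := card_ker_le h5 hA (h := h) hcard
  have heq : h.ker = φ.ker := by
    refine Subgroup.eq_of_le_of_card_ge hle ?_
    rw [hφker]
    by_cases htop : h.range = ⊤
    · have hb : φ.ker.map h = ⊥ := by
        refine (map_cases (by omega) h (by rw [htop]; exact le_top) φ.ker).resolve_right fun hbig => ?_
        have h3 := factorial_le_two_mul (by omega) hbig
        have := Subgroup.card_mul_index (h.ker.subgroupOf φ.ker)
        rw [Nat.card_congr (Subgroup.subgroupOfEquivOfLe hle).toEquiv,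
          show (h.ker.subgroupOf φ.ker).index = Nat.card (φ.ker.map h) by
            rw [show h.ker.subgroupOf φ.ker = (h.comp φ.ker.subtype).ker from rfl, Subgroup.index_ker,
              MonoidHom.range_comp, Subgroup.range_subtype], hφker] at this
        have h120 : 120 ≤ (n + 1).factorial := le_trans (by decide) (Nat.factorial_le (show 5 ≤ n + 1 by omega))
        have := Nat.card_pos (α := h.ker)
        nlinarith [hcards.1]
      rw [← hφker]
      exact Subgroup.card_le_of_le ((Subgroup.map_eq_bot_iff _).1 hb)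
    · exact hcards.2 htop
  refine ⟨heq, ?_⟩
  apply Equiv.Perm.alternatingGroup_le_of_index_le_two
  have e1 : Nat.card h.ker * Nat.card h.range = Nat.card f.ker * Nat.card f.range := by
    rw [card_hom_eq, card_hom_eq, hcard]
  rw [heq, hφker, Nat.mul_left_cancel_iff Nat.card_pos] at e1
  have i1 := Subgroup.card_mul_index h.range
  have i2 := Subgroup.card_mul_index f.range
  rw [e1, ← i2, Nat.mul_left_cancel_iff Nat.card_pos] at i1
  rw [i1]
  haveI : Nontrivial (Fin (n + 1)) := Fin.nontrivial_iff_two_le.2 (by omega)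
  calc f.range.index ≤ (alternatingGroup (Fin (n + 1))).index :=
        Nat.le_of_dvd (Nat.pos_of_ne_zero Subgroup.index_ne_zero_of_finite) (Subgroup.index_dvd_of_le hA)
    _ = 2 := alternatingGroup.index_eq_two

end Cfsg.Agent.PermGroups.AltSuborbit
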